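import Cfsg.Agent.H6.Ly.D2.Main
import Cfsg.Agent.H6.Ly.C0.Main
import Cfsg.Agent.H6.Ly.M.Main
import Cfsg.Agent.H6.Ly.H.Q.Main

set_option autoImplicit false
set_option maxRecDepth 100000
set_option Elab.async false

namespace Cfsg.H6.Ly

def R2 : List (List ℕ) := R.drop 72 ++ C0.T.map Prod.snd

theorem hR2 : Rels ev R2 := rels_app (fun r h => hR r (List.mem_of_mem_drop h)) (rels_of_mem_nil (C0.mem hev hR))

def sg : List (List ℕ) := [[], [1], [2], [3], [4], [5], [6], [7], [8], [9], [10], [11], [12], [13], [14], [15], [16], [17], [18], [19], [20], [21], [22], [23], [24], [25], [26], [27], [28], [29], [30], [31], [32], [33], [34], [35], [36], [37], [38], [39], [40], [41], [42], [43], [44], [45], [46], [47], [48], [49], [50], [51], [52], [53], [54], [55], [56], [57], [58], [59], [60], [61], [62], [63], [64], [65], [66], [67], [68], [69], [70], [71], [72], [73], [74], [75], [76]]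

theorem lift1 : ∃ θ : H.Grp →* Spor.Ly, ∀ l, θ (H.ev l) = evS ev sg l :=
  H.lift (good_evS hev hR (by decide +kernel)) (rels_evS hev hR (by decide +kernel))

/-- The map from the model of the subgroup. -/
noncomputable def θ : H.Grp →* Spor.Ly := lift1.choose

theorem hθ : ∀ l, θ (H.ev l) = evS ev sg l := lift1.choose_spec

def sg2 : List (List ℕ) := sg ++ [[77], [78]]

theorem hθ' : ∀ l, 1 ≤ l → l < 77 → θ (H.ev l) = evS ev sg2 l :=
  fun l _ h => by rw [hθ, sg2, evS_append ev sg _ h]

theorem hyp : D2.D.Hyp (evS ev sg2) θ.range :=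
  Dce.hyp_of hev hR2 (by decide +kernel) (Dce.chk_of hθ' H.ora)
    (Dce.ax_range (D := D2.D) hθ' (by decide +kernel))

theorem hX' : gen (evS ev sg2) X = ⊤ := by
  rw [gen_evS, show X.map (subst sg2) = X by decide +kernel]
  exact hX

theorem hU : ∀ x, D2.D.InU (evS ev sg2) θ.range θ (D2.E.map Prod.fst) x :=
  Dce.all_inU ⟨0, by decide +kernel, by decide +kernel⟩ (D2.hT (D2.model hθ') hyp)
    (Dce.hinv (D2.model hθ') hyp (a := []) (b := [29]) (by decide +kernel))
    hX' (Dce.hgen (D2.model hθ') (by decide +kernel))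

theorem cover : Cover θ.range ⊤ 8835156 := Dce.cover D2.E (D2.hE (D2.model hθ') hyp) hU

theorem ubH : UB θ.range 5859000000 := by
  have := H.finite
  exact UB.range θ H.card

theorem ub : UB (⊤ : Subgroup Spor.Ly) 51765179004000000 := ubH.cover cover

theorem finite : Finite Spor.Ly := ub.top.1

theorem dvH : 5859000000 ∣ Nat.card (Spor.Ly ⧸ M.μ.ker) := by
  have := H.Q.simple
  rw [← H.card]
  refine dvd_kq_of_simple θ M.μ (x := H.ev 1) ?_
  rw [hθ, show evS ev sg 1 = ev 1 from evL_singleton ev 1]
  exact M.ne1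

theorem main : Nat.card Spor.Ly = 51765179004000000 ∧ Function.Injective M.μ :=
  card_of_kq ub (M.dv dvH)

theorem exact : θ.range.index = 8835156 ∧ Nat.card θ.range = 5859000000 := by
  have := finite
  exact exact_of_cover cover ubH main.1

theorem θ_inj : Function.Injective θ := by
  have := H.finite
  exact injective_of_card_range θ (by rw [exact.2, H.card])

def Ws : List (List ℕ) := [[1], [3], [5], [7]]

theorem range_eq : θ.range = gen ev Ws := by
  rw [range_eq_genS hθ H.hX4]
  congr 1

theorem hX5 : gen ev [[1], [3], [5], [7], [77]] = ⊤ := by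
  rw [eq_top_iff, ← hX]
  refine gen_le fun w hw => ?_
  have h : w = [77] ∨ inR 77 w = true := by
    revert w
    decide +kernel
  rcases h with rfl | h
  · exact evL_mem_gen ev (by decide)
  · refine gen_mono ev (Ws := Ws) (by decide) ?_
    rw [← range_eq]
    refine ⟨evL H.ev w, ?_⟩
    rw [(D2.model hθ').mapW h, evL_subst]
    congr 1
    revert w
    decide +kernel

theorem coatom : IsCoatom θ.range :=
  Dce.isCoatom D2.E (D2.hE (D2.model hθ') hyp) hU (fun p => ⟨p, rfl⟩) exact.1 (by norm_num)
    (by decide +kernel)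

theorem simple : IsSimpleGroup Spor.Ly := by
  have := finite
  have : Nontrivial Spor.Ly := Finite.one_lt_card_iff_nontrivial.mp (by rw [main.1]; norm_num)
  refine isSimple_of_contains hX5 fun N _ hN => M.kill main.2 N ?_
  exact mem_normal_of_coatom coatom
    (fun h => hN (D2.core (D2.model hθ') hyp hU exact.1 N h)) (p := 67) (k := 1) (j := 1)
    (by norm_num) (by rw [exact.1]; norm_num) (by rw [main.1]; norm_num) (M.powx main.2)

end Cfsg.H6.Ly
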